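import Cfsg.Agent.AutCert.Common
import Cfsg.Agent.AutCert.M12Data

set_option autoImplicit false

/-!
All automorphisms of M12.
-/

namespace Cfsg.Agent.AutCert

open Cfsg Cfsg.Agent.SchurCert Cfsg.Agent.Golay
open scoped Pointwise

theorem m12_card : Nat.card Cfsg.Spor.M12 = 95040 := (card_inf_stabilizer_set squareDodecad_mem).1

theorem m12Gens_tested : m12Gens.all validPair = true ∧ ∀ x ∈ m12Gens,
    PreservesRows (codeFun x.1) ∧
      ∀ p, p ∈ Spor.squareDodecad → codeFun x.1 p ∈ Spor.squareDodecad := by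
  decide +kernel

theorem m12Gens_mem : ∀ x ∈ m12Gens, permOfPair x ∈ Cfsg.Spor.M12 := by
  intro x hx
  have hv := List.all_eq_true.1 m12Gens_tested.1 x hx
  have h := m12Gens_tested.2 x hx
  exact ⟨permOfPair_mem_M24 hv h.1, MulAction.mem_stabilizer_iff.2 (smul_eq_of_maps fun p hp => by
    rw [permOfPair_apply hv]; exact h.2 p hp)⟩

theorem m12_automorphisms (φ : MulAut Cfsg.Spor.M12) :
    ∃ h : Cfsg.Spor.M12, ∃ g < m12Conjs.length, ∀ x : Cfsg.Spor.M12,
      ((φ x : Cfsg.Spor.M12) : Equiv.Perm GolayPt) =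
        h.1 * permOfPair (m12Conjs.getD g (permOne, permOne)) * x.1 *
          (h.1 * permOfPair (m12Conjs.getD g (permOne, permOne)))⁻¹ := by
  haveI : Fintype Cfsg.Spor.M12 := Fintype.ofFinite _
  have henc : ∀ i, encPerm (elemAt Cfsg.Spor.M12 m12Gens i).1 = (m12Gens.map Prod.fst).getD i permOne :=
    enc_elemAt m12Gens_tested.1 m12Gens_mem
  have hv : m12Conjs.all validPair = true := by decide +kernel
  have hb : m12AutCert.genC.bound = 95040 := by decide +kernel
  have hlen : m12AutCert.conjs.length = m12Conjs.length := by decide +kernel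
  obtain ⟨h, i, hi, hx⟩ := exists_conj_of_check m12AutCert
    (show Nat.Prime 11 by norm_num) (m12_card.trans hb.symm)
    (show ¬ 11 ^ 2 ∣ Nat.card Cfsg.Spor.M12 by rw [m12_card]; norm_num)
    (c := elemAt Cfsg.Spor.M12 m12Gens 0) (d := elemAt Cfsg.Spor.M12 m12Gens 1) (e := elemAt Cfsg.Spor.M12 m12Gens 2)
    ((henc 0).trans (by decide +kernel)) ((henc 1).trans (by decide +kernel))
    ((henc 2).trans (by decide +kernel))
    (fun i => permOfPair (m12Conjs.getD i (permOne, permOne)))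
    (fun i hi => encPerm_getD hv i (hlen ▸ hi)) m12AutCert_check φ
  exact ⟨h, i, hlen ▸ hi, hx⟩

/-- An element of `Cfsg.M24` inducing the outer automorphism. -/
def m12Tau : Equiv.Perm GolayPt := permOfPair (m12Conjs.getD 1 (permOne, permOne))

theorem m12Tau_data : validPair (m12Conjs.getD 1 (permOne, permOne)) = true ∧
    ∀ x ∈ [m12Conjs.getD 1 (permOne, permOne)], PreservesRows (codeFun x.1) ∧ ∀ p, p ∈ Spor.squareDodecad ↔ codeFun x.1 p ∉ Spor.squareDodecad := by
  decide +kernel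

theorem m12Tau_mem : m12Tau ∈ M24 :=
  permOfPair_mem_M24 m12Tau_data.1 (m12Tau_data.2 _ List.mem_cons_self).1

theorem m12Tau_tested : m12Tau ∈ M24 ∧ (∀ p, p ∈ Spor.squareDodecad ↔ m12Tau p ∉ Spor.squareDodecad) := by
  have hv := m12Tau_data.1
  have h := m12Tau_data.2 _ List.mem_cons_self
  exact ⟨m12Tau_mem, fun p => by rw [m12Tau, permOfPair_apply hv]; exact h.2 p⟩

theorem m12Tau_conj_mem {x : Equiv.Perm GolayPt} (hx : x ∈ Cfsg.Spor.M12) :
    m12Tau * x * m12Tau⁻¹ ∈ Cfsg.Spor.M12 := by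
  obtain ⟨hx0, hxd⟩ := hx
  refine Subgroup.mem_inf.2 ⟨mul_mem (mul_mem m12Tau_mem hx0) (inv_mem m12Tau_mem), MulAction.mem_stabilizer_iff.2
    (smul_eq_of_maps fun p hp => ?_)⟩
  change m12Tau (x (m12Tau⁻¹ p)) ∈ _
  have hq := m12Tau_tested.2 (m12Tau⁻¹ p)
  rw [Equiv.Perm.coe_inv, Equiv.apply_symm_apply] at hq
  by_contra hc
  have h1 : x (m12Tau.symm p) ∈ Spor.squareDodecad := (m12Tau_tested.2 _).2 hc
  exact hq.1 ((apply_mem_octad_iff (MulAction.mem_stabilizer_iff.1 hxd) _).1 h1) hp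

theorem m12Tau_conj_mem' {x : Equiv.Perm GolayPt} (hx : x ∈ Cfsg.Spor.M12) :
    m12Tau⁻¹ * x * m12Tau ∈ Cfsg.Spor.M12 := by
  obtain ⟨hx0, hxd⟩ := hx
  refine Subgroup.mem_inf.2 ⟨mul_mem (mul_mem (inv_mem m12Tau_mem) hx0) m12Tau_mem, MulAction.mem_stabilizer_iff.2
    (smul_eq_of_maps fun p hp => ?_)⟩
  change m12Tau⁻¹ (x (m12Tau p)) ∈ _
  refine (m12Tau_tested.2 _).2 ?_
  rw [Equiv.Perm.coe_inv, Equiv.apply_symm_apply,
    apply_mem_octad_iff (MulAction.mem_stabilizer_iff.1 hxd)]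
  exact (m12Tau_tested.2 p).1 hp

theorem m12Tau_outer : ¬ ∃ a : Cfsg.Spor.M12, ∀ x : Cfsg.Spor.M12, m12Tau * x.1 * m12Tau⁻¹ = a.1 * x.1 * a.1⁻¹ := by
  rintro ⟨a, ha⟩
  haveI : Fintype Cfsg.Spor.M12 := Fintype.ofFinite _
  have henc : ∀ i, encPerm (elemAt Cfsg.Spor.M12 m12Gens i).1 = (m12Gens.map Prod.fst).getD i permOne :=
    enc_elemAt m12Gens_tested.1 m12Gens_mem
  have hc : encPerm (elemAt Cfsg.Spor.M12 m12Gens 0).1 = m12AutCert.c := (henc 0).trans (by decide +kernel)
  have hd : encPerm (elemAt Cfsg.Spor.M12 m12Gens 1).1 = m12AutCert.d := (henc 1).trans (by decide +kernel)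
  have he : encPerm (elemAt Cfsg.Spor.M12 m12Gens 2).1 = m12AutCert.e := (henc 2).trans (by decide +kernel)
  have hT : encPerm m12Tau = (m12Conjs.getD 1 (permOne, permOne)).1 :=
    encPerm_permOfPair m12Tau_data.1
  have hchk : m12AutCert.genD.check = true ∧ m12AutCert.genD.start = 3 ∧
      m12AutCert.genD.vals.take 3 = [m12AutCert.c, m12AutCert.d, m12AutCert.e] ∧
      m12AutCert.genD.centOK m12AutCert.d m12AutCert.centD = true ∧
      m12AutCert.genD.bound = 95040 ∧
      permMul (m12Conjs.getD 1 (permOne, permOne)).1 m12AutCert.d =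
        permMul m12AutCert.d (m12Conjs.getD 1 (permOne, permOne)).1 := by
    decide +kernel
  obtain ⟨hD, hs, ht, hcent, hb, hTd⟩ := hchk
  rw [← hd] at hcent hTd
  rw [← hT, ← encPerm_mul, ← encPerm_mul] at hTd
  have hTd' := encPerm_injective hTd
  have had := ha (elemAt Cfsg.Spor.M12 m12Gens 1)
  rw [hTd', mul_inv_cancel_right, eq_mul_inv_iff_mul_eq] at had
  have hmem := centOK_sound _ hD (start_mem (c := elemAt Cfsg.Spor.M12 m12Gens 0) (d := elemAt Cfsg.Spor.M12 m12Gens 1)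
      (e := elemAt Cfsg.Spor.M12 m12Gens 2) hs (by rw [hc, hd, he]; exact ht))
      (m12_card.trans hb.symm) hcent a.2 had.symm
  have hac := ha (elemAt Cfsg.Spor.M12 m12Gens 0)
  rw [eq_mul_inv_iff_mul_eq] at hac
  have key := congrArg encPerm hac
  simp only [encPerm_mul] at key
  have hinv : encPerm m12Tau⁻¹ = (m12Conjs.getD 1 (permOne, permOne)).2 := by
    have h2 : validPair ((m12Conjs.getD 1 (permOne, permOne)).2,
        (m12Conjs.getD 1 (permOne, permOne)).1) = true := by decide +kernel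
    have h3 : permMul (m12Conjs.getD 1 (permOne, permOne)).1
        (m12Conjs.getD 1 (permOne, permOne)).2 = permOne := by decide +kernel
    refine (congrArg encPerm ?_).trans (encPerm_permOfPair h2)
    refine inv_eq_of_mul_eq_one_right (encPerm_injective ?_)
    rw [encPerm_mul, hT, encPerm_permOfPair h2, encPerm_one]
    exact h3
  rw [hinv, hT, hc] at key
  have hall : ∀ y ∈ m12AutCert.centD, permMul (permMul (permMul (m12Conjs.getD 1 (permOne, permOne)).1
      m12AutCert.c) (m12Conjs.getD 1 (permOne, permOne)).2) y ≠ permMul y m12AutCert.c := by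
    decide +kernel
  exact hall _ hmem key

theorem m12_card_out : Nat.card (Cfsg.Out Cfsg.Spor.M12) = 2 := by
  refine card_out_eq_two_of_conj m12Tau (fun x hx => m12Tau_conj_mem hx)
    (fun x hx => m12Tau_conj_mem' hx) m12Tau_outer fun φ => ?_
  obtain ⟨h, i, hi, hx⟩ := m12_automorphisms φ
  have hlen : m12Conjs.length = 2 := rfl
  rcases (show i = 0 ∨ i = 1 by omega) with rfl | rfl
  · have h1 : permOfPair (m12Conjs.getD 0 (permOne, permOne)) = 1 :=
      encPerm_injective ((encPerm_permOfPair (by decide +kernel)).trans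
        ((show _ = permOne by decide +kernel).trans encPerm_one.symm))
    exact Or.inl ⟨h, fun x => by rw [hx x, h1, mul_one]⟩
  · exact Or.inr ⟨h, hx⟩

end Cfsg.Agent.AutCert
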